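import Cfsg.Agent.GLOrders.CharpolyExponent
import Cfsg.Agent.GLOrders.ProjectiveSL
import Cfsg.Agent.GLOrders.SpectrumThree

/-! The element orders of `PSL₃(q)`. -/

set_option autoImplicit false
set_option linter.style.haveILetI false

namespace CfsgLib.PSLThree

open Polynomial UniqueFactorizationMonoid

variable {F : Type*} [Field F] [Fintype F]

local notation "π" => QuotientGroup.mk' (Subgroup.center (Matrix.SpecialLinearGroup (Fin 3) F))

theorem adjoinRoot_facts {f : F[X]} (hi : Irreducible f) (hm : f.Monic) :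
    haveI := Fact.mk hi
    (∀ k : ℕ, ∀ e : F, AdjoinRoot.root f ^ k = AdjoinRoot.of f e → f ∣ X ^ k - C e) ∧
      aeval (AdjoinRoot.root f ^ Fintype.card F) f = 0 ∧
      ∀ x : AdjoinRoot f, x ≠ 0 → x ^ (Fintype.card F ^ f.natDegree - 1) = 1 := by
  haveI := Fact.mk hi
  haveI : Module.Finite F (AdjoinRoot f) := (AdjoinRoot.powerBasis hi.ne_zero).finite
  haveI : Finite (AdjoinRoot f) := Module.finite_of_finite F
  haveI := Fintype.ofFinite (AdjoinRoot f)
  refine ⟨fun k e h => AdjoinRoot.mk_eq_zero.1 (by simp [h]), ?_, fun x hx => ?_⟩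
  · rw [← Polynomial.expand_aeval, FiniteField.expand_card, map_pow, AdjoinRoot.aeval_eq, AdjoinRoot.mk_self,
      zero_pow Fintype.card_ne_zero]
  · have hc : Fintype.card (AdjoinRoot f) = Fintype.card F ^ f.natDegree := by
      rw [← Nat.card_eq_fintype_card, ← Nat.card_eq_fintype_card, Module.natCard_eq_pow_finrank (K := F),
        (AdjoinRoot.powerBasis hi.ne_zero).finrank, AdjoinRoot.powerBasis_dim]
    rw [← hc]
    exact FiniteField.pow_card_sub_one_eq_one x hx

/-- The cases of the upper bound, up to scalars. -/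
theorem exists_pow_scalar (p : ℕ) [Fact p.Prime] [CharP F p] (q : ℕ) (hq : Fintype.card F = q)
    (g : Matrix.SpecialLinearGroup (Fin 3) F) :
    orderOf (π g) ∣ (q ^ 2 + q + 1) / Nat.gcd 3 (q - 1) ∨ orderOf (π g) ∣ (q ^ 2 - 1) / Nat.gcd 3 (q - 1) ∨
      orderOf (π g) ∣ q - 1 ∨ orderOf (π g) ∣ p * (q - 1) / Nat.gcd 3 (q - 1) ∨ (p = 2 ∧ orderOf (π g) ∣ 4) := by
  classical
  have hord : ∀ k, (∃ c : F, (g : Matrix (Fin 3) (Fin 3) F) ^ k = c • (1 : Matrix (Fin 3) (Fin 3) F)) →
      orderOf (π g) ∣ k := fun k ⟨c, hc⟩ => orderOf_dvd_of_pow_eq_one (by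
    rw [← map_pow]; exact (GLOrders.mk_eq_one_iff _).2 ⟨c, by rw [Matrix.SpecialLinearGroup.coe_pow, hc]⟩)
  set A := (g : Matrix (Fin 3) (Fin 3) F) with hA
  have hq2 : 2 ≤ q := hq ▸ Fintype.one_lt_card
  set d := Nat.gcd 3 (q - 1) with hd
  obtain ⟨hd3, hdq⟩ : d ∣ 3 ∧ d ∣ q - 1 := ⟨Nat.gcd_dvd_left _ _, Nat.gcd_dvd_right _ _⟩
  have hp2 := (Fact.out : p.Prime).two_le
  set s := normalizedFactors A.charpoly with hs
  have hmonic := A.charpoly_monic
  have hprod : s.prod = A.charpoly := by
    rw [hs, prod_normalizedFactors_eq hmonic.ne_zero, hmonic.normalize_eq_self]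
  have hmem : ∀ f ∈ s, Irreducible f ∧ f.Monic := fun f hf => by
    refine ⟨irreducible_of_normalized_factor f hf, ?_⟩
    rw [← normalize_normalized_factor f hf]
    exact monic_normalize (irreducible_of_normalized_factor f hf).ne_zero
  have hdeg : (s.map natDegree).sum = 3 := by
    rw [← natDegree_multiset_prod_of_monic _ fun f hf => (hmem f hf).2, hprod, A.charpoly_natDegree_eq_dim,
      Fintype.card_fin]
  have hdeg1 : ∀ f ∈ s, 1 ≤ f.natDegree := fun f hf => (hmem f hf).1.natDegree_pos
  have hc0 : (s.map fun f => f.coeff 0).prod = -1 := by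
    have h := Matrix.det_eq_sign_charpoly_coeff A
    rw [show A.det = 1 from g.2, Fintype.card_fin, ← hprod, coeff_zero_multiset_prod] at h
    linear_combination h
  have hFq : ∀ e : F, e ≠ 0 → e ^ (q - 1) = 1 := fun e he => hq ▸ FiniteField.pow_card_sub_one_eq_one e he
  by_cases h3 : ∃ f ∈ s, f.natDegree = 3
  · -- irreducible characteristic polynomial
    obtain ⟨f, hf, hf3⟩ := h3
    obtain ⟨t, ht⟩ := Multiset.exists_cons_of_mem hf
    have ht0 : t = 0 := by
      by_contra h
      obtain ⟨u, hu⟩ := Multiset.exists_mem_of_ne_zero h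
      have h1 := Multiset.le_sum_of_mem (Multiset.mem_map_of_mem natDegree hu)
      have h2 := hdeg1 u (by rw [ht]; exact Multiset.mem_cons_of_mem hu)
      rw [ht, Multiset.map_cons, Multiset.sum_cons] at hdeg
      omega
    obtain ⟨hi, hm⟩ := hmem f hf
    have hfA : A.charpoly = f := by rw [← hprod, ht, ht0]; simp
    have hfz : aeval A f = 0 := hfA ▸ Matrix.aeval_self_charpoly A
    obtain ⟨c, hc⟩ := GLOrders.primary_pow_scalar p (by norm_num : 0 < 3) A g.2 hi hm
      (by rw [map_pow, hfz, zero_pow (by norm_num)]) 2 (by nlinarith)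
    left
    have h1 := hord _ ⟨c, hc⟩
    haveI := Fact.mk hi
    have h2 : orderOf (π g) ∣ q ^ 3 - 1 := by
      refine hord _ ⟨1, ?_⟩
      obtain ⟨hdv, -, hpc⟩ := adjoinRoot_facts hi hm
      have hne : AdjoinRoot.root f ≠ 0 := by
        intro h
        have hX : f ∣ X := AdjoinRoot.mk_eq_zero.1 (by rw [AdjoinRoot.mk_X]; exact h)
        have := natDegree_le_of_dvd hX X_ne_zero
        rw [hf3, natDegree_X] at this
        omega
      have h := hdv (q ^ 3 - 1) 1 (by rw [← hq, ← hf3, hpc _ hne, map_one])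
      obtain ⟨w, hw⟩ := h
      have h2 := congrArg (aeval A) hw
      rw [map_mul, hfz, zero_mul, map_sub, map_pow, aeval_X, aeval_C, sub_eq_zero,
        Algebra.algebraMap_eq_smul_one] at h2
      exact h2
    have hP : GLOrders.projSinger (Nat.card F) 3 = (q ^ 2 + q + 1) / d := by
      rw [GLOrders.projSinger, Nat.card_eq_fintype_card, hq]
      simp only [Finset.sum_range_succ, Finset.sum_range_zero, pow_zero, pow_one, zero_add]
      rw [show 1 + q + q ^ 2 = q ^ 2 + q + 1 by ring]
      congr 1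
      obtain ⟨k, hk⟩ : ∃ k, q = k + 1 := ⟨q - 1, by omega⟩
      subst hk
      rw [hd, show (k + 1) ^ 2 + (k + 1) + 1 = 3 + (k + 3) * k by ring, Nat.add_sub_cancel,
        Nat.gcd_add_mul_right_left]
    rw [← hP]
    refine (Nat.Coprime.dvd_of_dvd_mul_right ?_ h1)
    refine Nat.Coprime.coprime_dvd_left h2 (Nat.Coprime.pow_right _ (Nat.Coprime.symm ?_))
    rw [(Fact.out : p.Prime).coprime_iff_not_dvd]
    intro hpd
    obtain ⟨k, -, hk⟩ := FiniteField.card F p
    have hq3 : p ∣ q ^ 3 := dvd_pow (hq ▸ hk ▸ dvd_pow_self p k.ne_zero) (by norm_num)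
    have := Nat.dvd_sub hq3 hpd
    rw [Nat.sub_sub_self (Nat.one_le_pow _ _ (by omega))] at this
    have := Nat.le_of_dvd one_pos this
    omega
  push Not at h3
  by_cases h2 : ∃ f ∈ s, f.natDegree = 2
  · -- a quadratic and a linear factor
    obtain ⟨f, hf, hf2⟩ := h2
    obtain ⟨t, ht⟩ := Multiset.exists_cons_of_mem hf
    rw [ht, Multiset.map_cons, Multiset.sum_cons, hf2] at hdeg
    obtain ⟨u, hu⟩ : ∃ u, t = {u} := by
      apply Multiset.card_eq_one.1
      have h1 : Multiset.card t • 1 ≤ (t.map natDegree).sum := by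
        rw [← Multiset.card_map natDegree t]
        exact Multiset.card_nsmul_le_sum fun x hx => by
          obtain ⟨v, hv, rfl⟩ := Multiset.mem_map.1 hx
          exact hdeg1 v (by rw [ht]; exact Multiset.mem_cons_of_mem hv)
      rcases t.empty_or_exists_mem with rfl | ⟨v, hv⟩
      · simp at hdeg
      · have := Multiset.card_pos_iff_exists_mem.2 ⟨v, hv⟩
        simp at h1
        omega
    subst hu
    obtain ⟨hi, hm⟩ := hmem f hf
    have hum : u ∈ s := by rw [ht]; simp
    obtain ⟨hui, hum'⟩ := hmem u hum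
    have hu1 : u.natDegree = 1 := by simp at hdeg; omega
    have huX := hum'.eq_X_add_C hu1
    set c := -u.coeff 0 with hc
    haveI := Fact.mk hi
    obtain ⟨hdv, hconj, hpc⟩ := adjoinRoot_facts hi hm
    set x := AdjoinRoot.root f with hx
    set f0 := f.coeff 0 with hf0
    have hprod2 : f0 * c = 1 := by
      rw [ht] at hc0
      simp only [Multiset.map_cons, Multiset.map_singleton, Multiset.prod_cons, Multiset.prod_singleton] at hc0
      linear_combination -hc0
    have hnF : ∀ e : F, x ≠ AdjoinRoot.of f e := by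
      intro e he
      have hdvd := hdv 1 e (by rw [pow_one]; exact he)
      have := natDegree_le_of_dvd hdvd (by rw [pow_one]; exact X_sub_C_ne_zero e)
      rw [hf2, pow_one, natDegree_X_sub_C] at this
      omega
    have hx0 : x ≠ 0 := fun h => hnF 0 (by rw [h, map_zero])
    have hxq : x ^ q ≠ x := by
      intro h
      obtain ⟨e, he⟩ : ∃ e : F, x = AdjoinRoot.of f e := by
        have hne : ((X : (AdjoinRoot f)[X]) ^ q - X) ≠ 0 := FiniteField.X_pow_card_sub_X_ne_zero _ (by omega)
        have hroots : (Finset.univ.image (AdjoinRoot.of f)) = ((X : (AdjoinRoot f)[X]) ^ q - X).roots.toFinset := by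
          refine Finset.eq_of_subset_of_card_le (fun y hy => ?_) ?_
          · obtain ⟨e, -, rfl⟩ := Finset.mem_image.1 hy
            rw [Multiset.mem_toFinset, mem_roots hne, IsRoot.def, eval_sub, eval_pow, eval_X, ← map_pow, ← hq,
              FiniteField.pow_card, sub_self]
          · rw [Finset.card_image_of_injective _ (AdjoinRoot.of f).injective, Finset.card_univ, hq]
            exact (Multiset.toFinset_card_le _).trans ((card_roots' _).trans
              (FiniteField.X_pow_card_sub_X_natDegree_eq _ (by omega)).le)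
        have hxm : x ∈ ((X : (AdjoinRoot f)[X]) ^ q - X).roots.toFinset := by
          rw [Multiset.mem_toFinset, mem_roots hne, IsRoot.def, eval_sub, eval_pow, eval_X, h, sub_self]
        rw [← hroots] at hxm
        obtain ⟨e, -, he⟩ := Finset.mem_image.1 hxm
        exact ⟨e, he.symm⟩
      exact hnF e he
    have hev : ∀ y : AdjoinRoot f, aeval y f = y ^ 2 + AdjoinRoot.of f (f.coeff 1) * y + AdjoinRoot.of f f0 := by
      intro y
      have hfe : f = X ^ 2 + C (f.coeff 1) * X + C f0 := by
        have h22 : f.coeff 2 = 1 := by rw [← hf2]; exact hm.coeff_natDegree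
        have e := f.as_sum_range_C_mul_X_pow
        rw [hf2] at e
        refine e.trans ?_
        simp [Finset.sum_range_succ, h22, hf0]
        ring
      refine (congrArg (aeval y) hfe).trans ?_
      simp [AdjoinRoot.algebraMap_eq]
    have hr1 : aeval x f = 0 := by rw [hx, AdjoinRoot.aeval_eq, AdjoinRoot.mk_self]
    rw [hev] at hr1
    rw [hq, hev] at hconj
    have hnorm : x ^ (q + 1) = AdjoinRoot.of f f0 := by
      have hy : x ^ q + x + AdjoinRoot.of f (f.coeff 1) = 0 := by
        refine (mul_eq_zero.1 ?_).resolve_left (sub_ne_zero.2 hxq)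
        linear_combination hconj - hr1
      rw [pow_succ]
      linear_combination x * hy - hr1
    set L := (q ^ 2 - 1) / d with hL
    have hsq : q ^ 2 - 1 = (q + 1) * (q - 1) := by rw [← Nat.sq_sub_sq, one_pow]
    have hLd : L * d = q ^ 2 - 1 := Nat.div_mul_cancel (hdq.trans ⟨q + 1, by rw [hsq, mul_comm]⟩)
    have hLq : L = (q + 1) * ((q - 1) / d) := by rw [hL, hsq, Nat.mul_div_assoc _ hdq]
    have hc0' : c ≠ 0 := fun h => by rw [h, mul_zero] at hprod2; exact zero_ne_one hprod2
    have hf00 : f0 ≠ 0 := fun h => by rw [h, zero_mul] at hprod2; exact zero_ne_one hprod2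
    set E := f0 ^ ((q - 1) / d) with hE
    have hxL : x ^ L = AdjoinRoot.of f E := by rw [hLq, pow_mul, hnorm, ← map_pow]
    have hE3 : E ^ 3 = 1 := by
      obtain ⟨j, hj⟩ := hd3
      rw [hE, ← pow_mul, hj, ← mul_assoc, Nat.div_mul_cancel hdq, pow_mul, hFq _ hf00, one_pow]
    have hcL : c ^ L = E := by
      have h1 : E * c ^ ((q - 1) / d) = 1 := by rw [hE, ← mul_pow, hprod2, one_pow]
      have h2 : c ^ ((q - 1) / d) = E ^ 2 := by linear_combination E ^ 2 * h1 - (c ^ ((q - 1) / d)) * hE3
      have hEq : E ^ (q - 1) = 1 := hFq _ (pow_ne_zero _ hf00)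
      rw [hLq, mul_comm, pow_mul, h2, ← pow_mul, show 2 * (q + 1) = (q - 1) * 2 + (3 + 1) by omega, pow_add, pow_mul,
        hEq, one_pow, one_mul, pow_succ, hE3, one_mul]
    have hfL : f ∣ X ^ L - C E := hdv L E hxL
    have huL : u ∣ X ^ L - C E := by
      rw [huX, show (X + C (u.coeff 0) : F[X]) = X - C c by rw [hc, map_neg, sub_neg_eq_add], dvd_iff_isRoot]
      simp [hcL]
    right; left
    refine hord _ ⟨E, ?_⟩
    have hfu : f ≠ u := fun h => by rw [h, hu1] at hf2; omega
    have := GLOrders.pow_eq_scalar_of_factors p A L 1 0 E (by simp) (fun v hv => ?_) (fun v hv => ?_)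
    · simpa using this
    · rw [← hs, ht] at hv
      simp only [Multiset.mem_cons, Multiset.mem_singleton] at hv
      rcases hv with rfl | rfl
      exacts [hfL, huL]
    · refine Multiset.nodup_iff_count_le_one.1 ?_ v
      rw [← hs, ht]
      simp [hfu]
  push Not at h2
  -- split
  have hlin : ∀ f ∈ s, f = X - C (-f.coeff 0) := by
    intro f hf
    have h1 : f.natDegree = 1 := by
      have := hdeg1 f hf
      have := h2 f hf
      have := h3 f hf
      have := Multiset.le_sum_of_mem (Multiset.mem_map_of_mem natDegree hf)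
      omega
    rw [map_neg, sub_neg_eq_add]
    exact (hmem f hf).2.eq_X_add_C h1
  set R := s.map fun f => -f.coeff 0 with hR
  have hRc : Multiset.card R = 3 := by
    rw [hR, Multiset.card_map, ← hdeg]
    have : s.map natDegree = Multiset.replicate (Multiset.card s) 1 := by
      rw [← Multiset.map_const']
      exact Multiset.map_congr rfl fun f hf => by
        have e := congrArg natDegree (hlin f hf)
        rwa [natDegree_X_sub_C] at e
    rw [this, Multiset.sum_replicate, smul_eq_mul, mul_one]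
  have hcount : ∀ f ∈ s, s.count f = R.count (-f.coeff 0) := fun f hf =>
    (Multiset.count_map_eq_count (fun f => -f.coeff 0) s (fun u hu v hv huv => by
      have huv' : -u.coeff 0 = -v.coeff 0 := huv
      rw [hlin u hu, hlin v hv, huv']) f hf).symm
  have use : ∀ (L M k : ℕ) (E : F), M ≤ p ^ k → (∀ x ∈ R, x ^ L = E) → (∀ x ∈ R, R.count x ≤ M) →
      orderOf (π g) ∣ L * p ^ k := fun L M k E hM hx hcnt => by
    refine hord _ ⟨_, GLOrders.pow_eq_scalar_of_factors p A L M k E hM (fun f hf => ?_) (fun f hf => ?_)⟩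
    · rw [hlin f hf, dvd_iff_isRoot, IsRoot.def, eval_sub, eval_pow, eval_X, eval_C,
        hx _ (Multiset.mem_map_of_mem _ hf), sub_self]
    · rw [← hs, hcount f hf]
      exact hcnt _ (Multiset.mem_map_of_mem _ hf)
  obtain ⟨a, b, c, habc⟩ := Multiset.card_eq_three.1 hRc
  have hprod3 : a * b * c = 1 := by
    have h1 : R.prod = 1 := by
      rw [hR, show (fun f : F[X] => -f.coeff 0) = (fun x : F => -x) ∘ (fun f : F[X] => f.coeff 0) from rfl,
        ← Multiset.map_map, Multiset.prod_map_neg, hc0, Multiset.card_map]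
      have : Multiset.card s = 3 := by rw [← hRc, hR, Multiset.card_map]
      rw [this]; ring
    rw [← h1, habc]; simp [mul_assoc]
  have hne : a ≠ 0 ∧ b ≠ 0 ∧ c ≠ 0 := by
    refine ⟨?_, ?_, ?_⟩ <;> (rintro rfl; simp at hprod3)
  by_cases hnd : R.Nodup
  · right; right; left
    have := use (q - 1) 1 0 1 (by simp) (fun x hx => hFq x (by
      rw [habc] at hx
      simp only [Multiset.insert_eq_cons, Multiset.mem_cons, Multiset.mem_singleton] at hx
      rcases hx with rfl | rfl | rfl
      exacts [hne.1, hne.2.1, hne.2.2])) (fun x _ => Multiset.nodup_iff_count_le_one.1 hnd x)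
    simpa using this
  set m := (q - 1) / d with hm
  have hB : p * (q - 1) / d = m * p := by rw [hm, Nat.mul_div_assoc _ hdq, mul_comm]
  have two : ∀ u v : F, u ≠ 0 → u * u * v = 1 → v ^ m = u ^ m := by
    intro u v hu h
    have h3 : (u ^ m) ^ 3 = 1 := by
      obtain ⟨j, hj⟩ := hd3
      rw [hj, ← pow_mul, ← mul_assoc, hm, Nat.div_mul_cancel hdq, pow_mul, hFq u hu, one_pow]
    have h4 : (u ^ m * u ^ m) * v ^ m = 1 := by rw [← mul_pow, ← mul_pow, h, one_pow]
    linear_combination u ^ m * h4 - v ^ m * h3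
  obtain ⟨e, r, hre, hprod', hall⟩ : ∃ e r : F, (e ≠ 0) ∧ e * e * r = 1 ∧
      ((a = e ∧ b = e ∧ c = r) ∨ (a = e ∧ b = r ∧ c = e) ∨ (a = r ∧ b = e ∧ c = e)) := by
    have hrep : a = b ∨ a = c ∨ b = c := by
      by_contra h
      push Not at h
      apply hnd
      rw [habc]
      simp [h.1, h.2.1, h.2.2]
    rcases hrep with rfl | rfl | rfl
    · exact ⟨a, c, hne.1, hprod3, Or.inl ⟨rfl, rfl, rfl⟩⟩
    · exact ⟨a, b, hne.1, by linear_combination hprod3, Or.inr (Or.inl ⟨rfl, rfl, rfl⟩)⟩
    · exact ⟨b, a, hne.2.1, by linear_combination hprod3, Or.inr (Or.inr ⟨rfl, rfl, rfl⟩)⟩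
  have hmemR : ∀ x ∈ R, x = e ∨ x = r := by
    intro x hx
    rw [habc] at hx
    simp only [Multiset.insert_eq_cons, Multiset.mem_cons, Multiset.mem_singleton] at hx
    rcases hall with ⟨rfl, rfl, rfl⟩ | ⟨rfl, rfl, rfl⟩ | ⟨rfl, rfl, rfl⟩ <;> tauto
  have hpm : ∀ x ∈ R, x ^ m = e ^ m := by
    intro x hx
    rcases hmemR x hx with rfl | rfl
    exacts [rfl, two e x hre hprod']
  by_cases hp : p = 2
  · by_cases her : e = r
    · right; right; right; right
      refine ⟨hp, ?_⟩
      have := use 1 3 2 e (by nlinarith) (fun x hx => by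
        rcases hmemR x hx with rfl | rfl <;> simp [her]) (fun x _ => hRc ▸ Multiset.count_le_card x R)
      simpa [hp] using this
    · right; right; right; left
      rw [hB]
      have := use m 2 1 (e ^ m) (by simpa using hp2) hpm (fun x hx => by
        rcases hall with ⟨rfl, rfl, rfl⟩ | ⟨rfl, rfl, rfl⟩ | ⟨rfl, rfl, rfl⟩ <;>
          · rw [habc]
            rcases hmemR x hx with rfl | rfl <;>
              simp [Multiset.insert_eq_cons, Multiset.count_cons, Multiset.count_singleton, her, Ne.symm her])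
      simpa using this
  · right; right; right; left
    rw [hB]
    have := use m 3 1 (e ^ m) (by
      rw [pow_one]
      have := (Fact.out : p.Prime).two_le
      omega) hpm (fun x _ => hRc ▸ Multiset.count_le_card x R)
    simpa using this

/-- An element realising a multiple of `L`. -/
theorem exists_dvd (M : Matrix (Fin 3) (Fin 3) F) (hdet : M.det = 1) (L : ℕ)
    (hM : ∀ (k : ℕ) (t : F), M ^ k = t • (1 : Matrix (Fin 3) (Fin 3) F) → L ∣ k) :
    ∃ x : Matrix.ProjectiveSpecialLinearGroup (Fin 3) F, L ∣ orderOf x := by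
  let g : Matrix.SpecialLinearGroup (Fin 3) F := ⟨M, hdet⟩
  refine ⟨π g, ?_⟩
  have h := pow_orderOf_eq_one (π g)
  rw [← map_pow, GLOrders.mk_eq_one_iff] at h
  obtain ⟨t, ht⟩ := h
  exact hM _ t (by rw [← ht, Matrix.SpecialLinearGroup.coe_pow])

theorem spectrum (p : ℕ) [Fact p.Prime] [CharP F p] (q : ℕ) (hq : Fintype.card F = q) (s : ℕ) :
    s ∈ Set.range (orderOf : Matrix.ProjectiveSpecialLinearGroup (Fin 3) F → ℕ) ↔
      s ∣ (q ^ 2 + q + 1) / Nat.gcd 3 (q - 1) ∨ s ∣ (q ^ 2 - 1) / Nat.gcd 3 (q - 1) ∨ s ∣ q - 1 ∨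
        s ∣ p * (q - 1) / Nat.gcd 3 (q - 1) ∨ (p = 2 ∧ s ∣ 4) := by
  classical
  constructor
  · rintro ⟨x, rfl⟩
    obtain ⟨g, rfl⟩ := QuotientGroup.mk_surjective x
    exact exists_pow_scalar p q hq g
  have hgen : ∀ L : ℕ, (∃ x : Matrix.ProjectiveSpecialLinearGroup (Fin 3) F, L ∣ orderOf x) → s ∣ L →
      s ∈ Set.range (orderOf : Matrix.ProjectiveSpecialLinearGroup (Fin 3) F → ℕ) := by
    rintro L ⟨x, hx⟩ hs
    exact GLOrders.exists_orderOf_eq_of_dvd (orderOf_pos x) (hs.trans hx)
  have hq2 : 2 ≤ q := hq ▸ Fintype.one_lt_card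
  set d := Nat.gcd 3 (q - 1) with hd
  obtain ⟨hd3, hdq⟩ : d ∣ 3 ∧ d ∣ q - 1 := ⟨Nat.gcd_dvd_left _ _, Nat.gcd_dvd_right _ _⟩
  obtain ⟨w, hw⟩ := IsCyclic.exists_generator (α := Fˣ)
  have hwo : orderOf w = q - 1 := by
    rw [orderOf_eq_card_of_forall_mem_zpowers hw, Nat.card_units, Nat.card_eq_fintype_card, hq]
  have hwpow : ∀ k, (w : F) ^ k = 1 → q - 1 ∣ k := fun k hk => by
    rw [← hwo]
    exact orderOf_dvd_of_pow_eq_one (Units.ext (by rw [Units.val_pow_eq_pow_val, Units.val_one, hk]))
  rintro (hs | hs | hs | hs | ⟨rfl, hs⟩)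
  · obtain ⟨g, hg⟩ := GLOrders.exists_psl_singer (F := F) (n := 3) (by norm_num)
    refine hgen _ ⟨π g, ?_⟩ hs
    have hP : GLOrders.projSinger (Nat.card F) 3 = (q ^ 2 + q + 1) / d := by
      rw [GLOrders.projSinger, Nat.card_eq_fintype_card, hq]
      simp only [Finset.sum_range_succ, Finset.sum_range_zero, pow_zero, pow_one, zero_add]
      rw [show 1 + q + q ^ 2 = q ^ 2 + q + 1 by ring]
      congr 1
      obtain ⟨k, hk⟩ : ∃ k, q = k + 1 := ⟨q - 1, by omega⟩
      subst hk
      rw [hd, show (k + 1) ^ 2 + (k + 1) + 1 = 3 + (k + 3) * k by ring, Nat.add_sub_cancel,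
        Nat.gcd_add_mul_right_left]
    rwa [hP] at hg
  · -- the torus of order `q² - 1`
    let K := FiniteField.Extension F p 2
    haveI : Fintype K := Fintype.ofFinite K
    let b := (Module.finBasis F K).reindex (finCongr (FiniteField.finrank_extension F p 2))
    obtain ⟨v, hv⟩ := IsCyclic.exists_generator (α := Kˣ)
    have hvo : orderOf v = q ^ 2 - 1 := by
      rw [orderOf_eq_card_of_forall_mem_zpowers hv, Nat.card_units, FiniteField.natCard_extension,
        Nat.card_eq_fintype_card, hq]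
    set B := Algebra.leftMulMatrix b (v : K) with hB
    have hBdet : B.det ≠ 0 := by
      intro h
      have h1 : B * Algebra.leftMulMatrix b ((v⁻¹ : Kˣ) : K) = 1 := by
        rw [hB, ← map_mul, Units.mul_inv, map_one]
      have h2 := congrArg Matrix.det h1
      rw [Matrix.det_mul, h, zero_mul, Matrix.det_one] at h2
      exact zero_ne_one h2
    set e : F := B.det with he
    let M : Matrix (Fin 3) (Fin 3) F := !![B 0 0, B 0 1, 0; B 1 0, B 1 1, 0; 0, 0, e⁻¹]
    have hMpow : ∀ k : ℕ, M ^ k = !![(B ^ k) 0 0, (B ^ k) 0 1, 0; (B ^ k) 1 0, (B ^ k) 1 1, 0; 0, 0, e⁻¹ ^ k] := by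
      intro k
      induction k with
      | zero => ext i j; fin_cases i <;> fin_cases j <;> simp
      | succ k ih =>
        rw [pow_succ, ih]
        ext i j
        fin_cases i <;> fin_cases j <;>
          simp [M, Matrix.mul_apply, Fin.sum_univ_three, Fin.sum_univ_two, pow_succ]
    refine hgen _ (exists_dvd M ?_ _ fun k t hk => ?_) hs
    · rw [show M.det = B.det * e⁻¹ by simp [M, Matrix.det_fin_three, Matrix.det_fin_two]; ring, ← he,
        mul_inv_cancel₀ hBdet]
    · rw [hMpow] at hk
      have hBk : B ^ k = t • (1 : Matrix (Fin 2) (Fin 2) F) := by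
        ext i j
        have h00 := congrFun (congrFun hk (i.castLE (by norm_num))) (j.castLE (by norm_num))
        fin_cases i <;> fin_cases j <;> simpa using h00
      have h22 : e⁻¹ ^ k = t := by
        have := congrFun (congrFun hk 2) 2
        simpa using this
      have hdetk : e ^ k = t * t := by
        rw [he, ← Matrix.det_pow, hBk, Matrix.det_smul, Matrix.det_one, mul_one, Fintype.card_fin, pow_two]
      have ht : t ^ 3 = 1 := by
        have h4 : e⁻¹ ^ k * e ^ k = 1 := by rw [← mul_pow, inv_mul_cancel₀ hBdet, one_pow]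
        rw [h22, hdetk] at h4
        linear_combination h4
      have ht0 : t ≠ 0 := fun h => by simp [h] at ht
      have htd : t ^ d = 1 := pow_gcd_eq_one.2 ⟨ht, hq ▸ FiniteField.pow_card_sub_one_eq_one t ht0⟩
      rw [← map_pow, ← Algebra.algebraMap_eq_smul_one, ← AlgHom.commutes (Algebra.leftMulMatrix b)] at hBk
      have hvk : (v : K) ^ k = algebraMap F K t := Algebra.leftMulMatrix_injective b hBk
      have h1 : v ^ (k * d) = 1 := Units.ext (by
        rw [Units.val_pow_eq_pow_val, Units.val_one, pow_mul, hvk, ← map_pow, htd, map_one])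
      have h2 := orderOf_dvd_of_pow_eq_one h1
      rw [hvo] at h2
      obtain ⟨j, hj⟩ : d ∣ q ^ 2 - 1 := hdq.trans ⟨q + 1, by
        rw [mul_comm, ← Nat.sq_sub_sq, one_pow]⟩
      rw [hj, Nat.mul_div_cancel_left _ (Nat.gcd_pos_of_pos_left _ (by norm_num))]
      rw [hj, mul_comm k] at h2
      exact Nat.dvd_of_mul_dvd_mul_left (Nat.gcd_pos_of_pos_left _ (by norm_num)) h2
  · refine hgen _ (exists_dvd (Matrix.diagonal ![(w : F), (w : F)⁻¹, 1]) ?_ _ fun k t hk => ?_) hs
    · simp [Matrix.det_diagonal, Fin.prod_univ_three]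
    · rw [Matrix.diagonal_pow] at hk
      have h00 := congrFun (congrFun hk 0) 0
      have h22 := congrFun (congrFun hk 2) 2
      simp at h00 h22
      exact hwpow k (h00.trans h22.symm)
  · set a : F := (w : F) with ha
    have ha0 : a ≠ 0 := w.ne_zero
    let M : Matrix (Fin 3) (Fin 3) F := !![a, a, 0; 0, a, 0; 0, 0, a⁻¹ ^ 2]
    have hMpow : ∀ k : ℕ, M ^ k = !![a ^ k, k * a ^ k, 0; 0, a ^ k, 0; 0, 0, (a⁻¹ ^ 2) ^ k] := by
      intro k
      induction k with
      | zero => ext i j; fin_cases i <;> fin_cases j <;> simp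
      | succ k ih =>
        rw [pow_succ, ih]
        ext i j
        fin_cases i <;> fin_cases j <;> simp [M, Matrix.mul_apply, Fin.sum_univ_three, pow_succ] <;> ring
    refine hgen _ (exists_dvd M ?_ _ fun k t hk => ?_) hs
    · simp [M, Matrix.det_fin_three]; field_simp
    · rw [hMpow] at hk
      have h00 := congrFun (congrFun hk 0) 0
      have h01 := congrFun (congrFun hk 0) 1
      have h22 := congrFun (congrFun hk 2) 2
      simp [ha0] at h00 h01 h22
      have hpk : p ∣ k := (CharP.cast_eq_zero_iff F p k).1 h01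
      have h3k : a ^ (3 * k) = 1 := by
        have h4 : (a ^ 2) ^ k * a ^ k = 1 := by
          rw [h00, ← h22, mul_inv_cancel₀ (pow_ne_zero _ (pow_ne_zero _ ha0))]
        rw [← h4, ← mul_pow, pow_mul]; ring_nf
      have hd0 : 0 < d := Nat.gcd_pos_of_pos_left _ (by norm_num)
      have h5 : (q - 1) / d ∣ k := by
        have h6 := Nat.div_dvd_div hdq (hwpow _ h3k)
        have hco : Nat.Coprime ((q - 1) / d) (3 / d) := by
          rcases (Nat.dvd_prime Nat.prime_three).1 hd3 with h | h
          · rw [h, Nat.div_one, Nat.div_one]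
            exact Nat.Coprime.symm (hd ▸ h : Nat.gcd 3 (q - 1) = 1)
          · rw [h]; norm_num
        rw [Nat.mul_div_right_comm hd3] at h6
        exact hco.dvd_of_dvd_mul_left h6
      have hcop : Nat.Coprime p ((q - 1) / d) := by
        rw [(Fact.out : p.Prime).coprime_iff_not_dvd]
        intro h
        obtain ⟨j, -, hj⟩ := FiniteField.card F p
        have h1 : p ∣ q - 1 := h.trans (Nat.div_dvd_of_dvd hdq)
        have h2 : p ∣ q := hq ▸ hj ▸ dvd_pow_self p j.ne_zero
        have := Nat.dvd_sub h2 h1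
        rw [Nat.sub_sub_self (by omega)] at this
        exact (Fact.out : p.Prime).not_dvd_one this
      rw [Nat.mul_div_assoc _ hdq]
      exact hcop.mul_dvd_of_dvd_of_dvd hpk h5
  · let M : Matrix (Fin 3) (Fin 3) F := !![1, 1, 0; 0, 1, 1; 0, 0, 1]
    have h2 : (2 : F) = 0 := by exact_mod_cast CharP.cast_eq_zero F 2
    have hM2 : M ^ 2 = !![1, 0, 1; 0, 1, 0; 0, 0, 1] := by
      ext i j
      fin_cases i <;> fin_cases j <;> simp [M, pow_two, Matrix.mul_apply, Fin.sum_univ_three, one_add_one_eq_two, h2]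
    have hM4 : M ^ 4 = 1 := by
      rw [show (4 : ℕ) = 2 * 2 from rfl, pow_mul, hM2]
      ext i j
      fin_cases i <;> fin_cases j <;> simp [pow_two, Matrix.mul_apply, Fin.sum_univ_three, one_add_one_eq_two, h2]
    have hdet : M.det = 1 := by simp [M, Matrix.det_fin_three]
    refine hgen _ (exists_dvd M hdet _ fun k t hk => ?_) hs
    have hmod : M ^ k = M ^ (k % 4) := by
      conv_lhs => rw [← Nat.mod_add_div k 4, pow_add, pow_mul, hM4, one_pow, mul_one]
    rw [hmod] at hk
    have h4 : k % 4 < 4 := Nat.mod_lt _ (by norm_num)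
    refine Nat.dvd_of_mod_eq_zero ?_
    interval_cases hr : k % 4
    · rfl
    · have := congrFun (congrFun hk 0) 1
      simp [M] at this
    · rw [hM2] at hk
      have := congrFun (congrFun hk 0) 2
      simp at this
    · rw [pow_succ, hM2] at hk
      have := congrFun (congrFun hk 0) 1
      simp [M, Matrix.mul_apply, Fin.sum_univ_three] at this

end CfsgLib.PSLThree
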